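import Cfsg.Agent.H777.T6.Defs
import Cfsg.Agent.H932.TC6.Row
import Cfsg.Agent.H332.TC.D42
import Cfsg.Agent.H332.TC.G23
import Cfsg.Agent.H137.G24.Fin

/-!
# S2464: glue for the rows `G₂(q)`, `³D₄(q)`, `F₄(q)`: from the fields to the isomorphism classes
-/

set_option autoImplicit false

namespace Cfsg.Agent.H562.TC6.Glue

open Cfsg Cfsg.Lie Cfsg.Agent.H777.T6

universe u

/-- **row `G₂`**, from `q = 5` and `q ≥ 7` -/
theorem t6_isoG2_of
    (five : ∀ (F : Type) [Field F] [Fintype F], Fintype.card F = 5 → T6 ↥(chevG2.group F))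
    (gen : ∀ (F : Type) [Field F] [Fintype F], 7 ≤ Fintype.card F → T6 ↥(chevG2.group F))
    {G : Type u} [Group G] (h : IsoChevG2 G) : T6 G := by
  obtain ⟨F, _, _, h3, ⟨e⟩⟩ := h
  refine T6.of_equiv e ?_
  have hq : IsPrimePow (Fintype.card F) := FiniteField.isPrimePow_card F
  rcases Nat.lt_or_ge (Fintype.card F) 7 with h7 | h7
  · have h6 : Fintype.card F ≠ 6 := by
      intro h6
      rw [h6] at hq
      exact absurd hq (by rw [isPrimePow_nat_iff_bounded]; decide)
    have h0 : Fintype.card F = 3 ∨ Fintype.card F = 4 ∨ Fintype.card F = 5 := by omega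
    rcases h0 with h | h | h
    · exact Cfsg.Agent.H332.TC.G23.six_g2_three h
    · exact Cfsg.Agent.H137.G24.six_g2_four h
    · exact five F h
  · exact gen F h7

/-- **row `³D₄`**, from `q = 3` and `q = 5, 7, 17` -/
theorem t6_iso3D4_of
    (three : ∀ (K : Type) [Field K] [Fintype K], Fintype.card K = 3 ^ 3 → T6 ↥(twistedD4 K 3))
    (fs : ∀ (K : Type) [Field K] [Fintype K] (q : ℕ), q = 5 ∨ q = 7 ∨ q = 17 → Fintype.card K = q ^ 3 →
      T6 ↥(twistedD4 K q))
    {G : Type u} [Group G] (h : Iso3D4 G) : T6 G := by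
  obtain ⟨K, _, _, q, hq, hK, ⟨e⟩⟩ := h
  refine T6.of_equiv e ?_
  by_cases h2 : q = 2
  · subst h2
    exact Cfsg.Agent.H332.TC.D42.six_td4_two hK
  by_cases h3 : q = 3
  · subst h3
    exact three K hK
  by_cases h5 : q = 5
  · exact fs K q (Or.inl h5) hK
  by_cases h7 : q = 7
  · exact fs K q (Or.inr (Or.inl h7)) hK
  by_cases h17 : q = 17
  · exact fs K q (Or.inr (Or.inr h17)) hK
  exact Cfsg.Agent.H932.TC6.Row.t6_twistedD4 hq hK h2 h3 h5 h7 h17

/-- **row `F₄`** -/
theorem t6_isoF4_of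
    (two : ∀ (F : Type) [Field F] [Fintype F], Fintype.card F = 2 → T6 ↥(chevF4.group F))
    (three : ∀ (F : Type) [Field F] [Fintype F], Fintype.card F = 3 → T6 ↥(chevF4.group F))
    (fs : ∀ (F : Type) [Field F] [Fintype F], Fintype.card F = 5 ∨ Fintype.card F = 7 ∨ Fintype.card F = 17 →
      T6 ↥(chevF4.group F))
    (gen : ∀ (F : Type) [Field F] [Fintype F], Fintype.card F ≠ 2 → Fintype.card F ≠ 3 → Fintype.card F ≠ 5 →
      Fintype.card F ≠ 7 → Fintype.card F ≠ 17 → T6 ↥(chevF4.group F))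
    {G : Type u} [Group G] (h : IsoF4 G) : T6 G := by
  obtain ⟨F, _, _, ⟨e⟩⟩ := h
  refine T6.of_equiv e ?_
  by_cases h2 : Fintype.card F = 2
  · exact two F h2
  by_cases h3 : Fintype.card F = 3
  · exact three F h3
  by_cases h5 : Fintype.card F = 5
  · exact fs F (Or.inl h5)
  by_cases h7 : Fintype.card F = 7
  · exact fs F (Or.inr (Or.inl h7))
  by_cases h17 : Fintype.card F = 17
  · exact fs F (Or.inr (Or.inr h17))
  exact gen F h2 h3 h5 h7 h17

end Cfsg.Agent.H562.TC6.Glue
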