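import Cfsg.Agent.H562.TC6.SpOdd
import Cfsg.Agent.H962.TC.Num

/-!
# S2464, the groups `PSp_2n(q)`, `q` odd, `n ≥ 4`, `q ≠ 3, 5, 7, 17`
-/

set_option autoImplicit false

namespace Cfsg.Agent.H562.TC6

open Cfsg.Agent.H140.TC.Sp

/-- from `Sp` to `PSp` -/
theorem six_quot {G : Type*} [Group G] (N : Subgroup G) [N.Normal] {x₀ y₀ : G} (hx : Nat.Coprime (orderOf x₀) 6)
    (hy : Nat.Coprime (orderOf y₀) 6)
    (h : ∀ g : G, g ∉ N → ∃ u v : G, g = (u * x₀ * u⁻¹) * (v * y₀ * v⁻¹)) :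
    ∃ x y : G ⧸ N, Nat.Coprime (orderOf x) 6 ∧ Nat.Coprime (orderOf y) 6 ∧
      ∀ g : G ⧸ N, g ≠ 1 → ∃ u v : G ⧸ N, g = (u * x * u⁻¹) * (v * y * v⁻¹) := by
  have ho : ∀ z : G, Nat.Coprime (orderOf z) 6 → Nat.Coprime (orderOf (z : G ⧸ N)) 6 := fun z hz =>
    Nat.Coprime.coprime_dvd_left (orderOf_map_dvd (QuotientGroup.mk' N) z) hz
  refine ⟨(x₀ : G ⧸ N), (y₀ : G ⧸ N), ho _ hx, ho _ hy, fun g hg => ?_⟩
  obtain ⟨g, rfl⟩ := QuotientGroup.mk_surjective g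
  obtain ⟨u, v, e⟩ := h g (fun hc => hg ((QuotientGroup.eq_one_iff g).2 hc))
  refine ⟨(u : G ⧸ N), (v : G ⧸ N), ?_⟩
  conv_lhs => rw [e]
  rfl

/-- **`PSp_2n(q)`**, `q` odd, `n ≥ 4`, `q ≠ 3, 5, 7, 17`: two classes of elements of order prime to `6` -/
theorem six_psp_odd {n : ℕ} (hn : 4 ≤ n) (F : Type*) [Field F] [Finite F] (h2 : (2 : F) ≠ 0)
    (h3 : Nat.card F ≠ 3) (h5 : Nat.card F ≠ 5) (h7 : Nat.card F ≠ 7) (h17 : Nat.card F ≠ 17) :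
    ∃ x y : Cfsg.PSp n F, Nat.Coprime (orderOf x) 6 ∧ Nat.Coprime (orderOf y) 6 ∧
      ∀ g : Cfsg.PSp n F, g ≠ 1 → ∃ u v : Cfsg.PSp n F, g = (u * x * u⁻¹) * (v * y * v⁻¹) := by
  have hq := card_ge h2
  obtain ⟨r, hr, hr5, hrd⟩ := Cfsg.Agent.H962.TC.exists_prime_sq (q := Nat.card F) (by omega) h5 h7 h17
  obtain ⟨k, rfl⟩ : ∃ k, n = k + 2 := ⟨n - 2, by omega⟩
  obtain ⟨x₀, y₀, hx, hy, h⟩ := six_sp_odd (F := F) (k := k) h2 (by omega) hr hr5 hrd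
  exact six_quot _ hx hy h

end Cfsg.Agent.H562.TC6
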