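import Cfsg.Agent.H140.TC.SpRow
import Cfsg.Agent.Lib.Zsigmondy

/-!
# S2464, the groups `PSp_2n(q)`, `q` odd, `n ≥ 4`, `q² - 1` not a `{2,3}`-number
-/

set_option autoImplicit false

namespace Cfsg.Agent.H562.TC6

open Module Matrix Polynomial Cfsg.Agent.H962.PP Cfsg.Agent.H126.PwO Cfsg.Agent.H140.OreO Cfsg.Agent.H140.TC
  Cfsg.Agent.H140.TC.Sp

variable {F : Type*} [Field F]

/-! ### primes -/

/-- a primitive prime divisor of `q ^ d - 1` -/
theorem exists_prim {q d : ℕ} (hq : 3 ≤ q) (hd : 3 ≤ d) : ∃ r : ℕ, r.Prime ∧ 5 ≤ r ∧ r ∣ q ^ d - 1 ∧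
    ∀ k, r ∣ q ^ k - 1 ↔ d ∣ k := by
  obtain ⟨r, hr, ho⟩ := Cfsg.Agent.Lib.Zsigmondy.exists_prime_orderOf (a := q) (n := d) (by omega) (by omega)
    (by omega) (by omega)
  have hrm : ∀ k, r ∣ q ^ k - 1 ↔ d ∣ k := by
    intro m
    have h1 : 1 ≤ q ^ m := Nat.one_le_pow _ _ (by omega)
    rw [← ho, orderOf_dvd_iff_pow_eq_one, ← Nat.cast_pow, ← Nat.cast_one (R := ZMod r),
      ZMod.natCast_eq_natCast_iff', ← ZMod.natCast_eq_natCast_iff', eq_comm, ZMod.natCast_eq_natCast_iff,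
      Nat.modEq_iff_dvd' h1]
  have hd' := (hrm d).2 dvd_rfl
  have hrq : ¬ r ∣ q := by
    intro h
    have h1 : r ∣ q ^ d := dvd_pow h (by omega)
    have h2 : 1 ≤ q ^ d := Nat.one_le_pow _ _ (by omega)
    have h3 : r ∣ 1 := by
      have := (Nat.dvd_sub_iff_right h2 h1).1 hd'
      exact this
    exact hr.one_lt.ne' (Nat.dvd_one.1 h3)
  have hF : Fact r.Prime := ⟨hr⟩
  have h4 : d ∣ r - 1 := by
    rw [← ho]
    apply orderOf_dvd_of_pow_eq_one
    apply ZMod.pow_card_sub_one_eq_one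
    rw [Ne, ZMod.natCast_eq_zero_iff]
    exact hrq
  have h5 : d ≤ r - 1 := Nat.le_of_dvd (by have := hr.two_le; omega) h4
  refine ⟨r, hr, ?_, hd', hrm⟩
  by_contra h
  have h6 : r = 4 := by omega
  rw [h6] at hr
  exact absurd hr (by norm_num)

theorem cop6 {r : ℕ} (hr : r.Prime) (h5 : 5 ≤ r) : Nat.Coprime r 6 := by
  rw [hr.coprime_iff_not_dvd]
  intro h
  have h1 : r ∣ 2 * 3 := h
  rcases hr.dvd_mul.1 h1 with h | h
  · have := Nat.le_of_dvd (by norm_num) h; omega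
  · have := Nat.le_of_dvd (by norm_num) h; omega

/-- if `r ∣ q ^ i + 1`, `d` the order of `q` modulo `r`, then `d ∣ 2 i` and not `d ∣ i` -/
theorem two_mul {q d r i : ℕ} (hq : 1 ≤ q) (hr : r.Prime) (h5 : 5 ≤ r) (h : ∀ k, r ∣ q ^ k - 1 ↔ d ∣ k)
    (hi : r ∣ q ^ i + 1) : d ∣ 2 * i ∧ ¬ d ∣ i := by
  have h1 : 1 ≤ q ^ i := Nat.one_le_pow _ _ hq
  have e : q ^ (2 * i) - 1 = (q ^ i + 1) * (q ^ i - 1) := by
    obtain ⟨a, ha⟩ : ∃ a, q ^ i = a + 1 := ⟨q ^ i - 1, by omega⟩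
    rw [mul_comm 2 i, pow_mul, ha, Nat.add_sub_cancel]
    have : (a + 1) ^ 2 = (a + 1 + 1) * a + 1 := by ring
    omega
  refine ⟨(h _).1 (by rw [e]; exact hi.mul_right _), fun hd => ?_⟩
  have h2 := (h i).2 hd
  have h3 : r ∣ (q ^ i + 1) - (q ^ i - 1) := Nat.dvd_sub hi h2
  have h4 : (q ^ i + 1) - (q ^ i - 1) = 2 := by omega
  rw [h4] at h3
  have := Nat.le_of_dvd (by norm_num) h3
  omega

/-- polynomials of odd degree, roots of prime order -/
theorem exists_odd (F : Type*) [Field F] [Finite F] (hq : 3 ≤ Nat.card F) {d : ℕ} (hd : 3 ≤ d) (ho : Odd d) :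
    ∃ (f : F[X]) (s : ℕ), RP d f ∧ s.Prime ∧ 5 ≤ s ∧ f ∣ X ^ s - 1 := by
  obtain ⟨r, hr, h5, hrd, hrm⟩ := exists_prim hq hd
  obtain ⟨f, hf⟩ := exists_pol F (by omega) hrd (fun k hk hkd h => by
    have := Nat.le_of_dvd hk ((hrm k).1 h)
    omega)
  refine ⟨f, r, ⟨hf.monic, hf.irr, hf.deg, hf.cop fun i hi h => ?_⟩, hr, h5, (hf.dvd r).2 dvd_rfl⟩
  obtain ⟨h1, h2⟩ := two_mul (by omega) hr h5 hrm h
  apply h2
  exact (Nat.Coprime.dvd_mul_left (Nat.Coprime.symm (Nat.coprime_two_left.2 ho))).1 h1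

/-- polynomials of even degree -/
theorem exists_even (F : Type*) [Field F] [Finite F] (hq : 3 ≤ Nat.card F) {d : ℕ} (hd : 4 ≤ d) (he : Even d)
    {r : ℕ} (hr : r.Prime) (h5 : 5 ≤ r) (hrd : r ∣ Nat.card F ^ 2 - 1) :
    ∃ (f : F[X]) (s : ℕ), RP d f ∧ Nat.Coprime s 6 ∧ f ∣ X ^ s - 1 := by
  obtain ⟨m, hm⟩ := he
  obtain ⟨l, hl, hl5, hld, hlm⟩ := exists_prim hq (show 3 ≤ d by omega)
  obtain ⟨t, ht, ht5, htd⟩ : ∃ t : ℕ, t.Prime ∧ 5 ≤ t ∧ t ∣ Nat.card F ^ m - 1 := by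
    rcases Nat.lt_or_ge 2 m with h | h
    · obtain ⟨t, ht, h5, h6, -⟩ := exists_prim hq (show 3 ≤ m by omega)
      exact ⟨t, ht, h5, h6⟩
    · have : m = 2 := by omega
      subst this
      exact ⟨r, hr, h5, hrd⟩
  have hlt : l ≠ t := by
    rintro rfl
    have := Nat.le_of_dvd (by omega) ((hlm m).1 htd)
    omega
  have hcop : Nat.Coprime l t := (Nat.coprime_primes hl ht).2 hlt
  have htd' : t ∣ Nat.card F ^ d - 1 := by
    refine htd.trans ?_
    have h1 := Nat.sub_dvd_pow_sub_pow (Nat.card F ^ m) 1 2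
    rw [one_pow, ← pow_mul] at h1
    have : m * 2 = d := by omega
    rwa [this] at h1
  have hs : l * t ∣ Nat.card F ^ d - 1 := hcop.mul_dvd_of_dvd_of_dvd hld htd'
  obtain ⟨f, hf⟩ := exists_pol F (by omega) hs (fun k hk hkd h => by
    have := Nat.le_of_dvd hk ((hlm k).1 ((Dvd.intro _ rfl).trans h))
    omega)
  refine ⟨f, l * t, ⟨hf.monic, hf.irr, hf.deg, hf.cop fun i hi h => ?_⟩,
    Nat.Coprime.mul_left (cop6 hl hl5) (cop6 ht ht5), (hf.dvd _).2 dvd_rfl⟩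
  have hl' : l ∣ Nat.card F ^ i + 1 := (Dvd.intro _ rfl).trans h
  have ht' : t ∣ Nat.card F ^ i + 1 := (Dvd.intro_left _ rfl).trans h
  obtain ⟨h1, h2⟩ := two_mul (by omega) hl hl5 hlm hl'
  have hi0 : i ≠ 0 := by
    rintro rfl
    exact h2 (dvd_zero _)
  have him : i = m := by
    obtain ⟨c, hc⟩ := h1
    rcases Nat.lt_or_ge c 2 with h | h
    · interval_cases c
      · omega
      · omega
    · have : d * 2 ≤ d * c := Nat.mul_le_mul_left _ h
      omega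
  rw [him] at ht'
  have h3 : t ∣ (Nat.card F ^ m + 1) - (Nat.card F ^ m - 1) := Nat.dvd_sub ht' htd
  have h4 : 1 ≤ Nat.card F ^ m := Nat.one_le_pow _ _ (by omega)
  have h6 : (Nat.card F ^ m + 1) - (Nat.card F ^ m - 1) = 2 := by omega
  rw [h6] at h3
  have := Nat.le_of_dvd (by norm_num) h3
  omega

/-- both parities -/
theorem exists_rp6 (F : Type*) [Field F] [Finite F] (hq : 3 ≤ Nat.card F) {d : ℕ} (hd : 3 ≤ d)
    {r : ℕ} (hr : r.Prime) (h5 : 5 ≤ r) (hrd : r ∣ Nat.card F ^ 2 - 1) :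
    ∃ (f : F[X]) (s : ℕ), RP d f ∧ Nat.Coprime s 6 ∧ f ∣ X ^ s - 1 := by
  rcases Nat.even_or_odd d with h | h
  · have : 4 ≤ d := by
      obtain ⟨m, hm⟩ := h
      omega
    exact exists_even F hq this h hr h5 hrd
  · obtain ⟨f, s, h1, h2, h3, h4⟩ := exists_odd F hq hd h
    exact ⟨f, s, h1, cop6 h2 h3, h4⟩

/-! ### the two dimensional part -/

/-- the trace -/
theorem exists_t (F : Type*) [Field F] [Finite F] {r : ℕ} (hr : r.Prime) (h5 : 5 ≤ r)
    (hrd : r ∣ Nat.card F ^ 2 - 1) : ∃ t : F, t ^ 2 ≠ 4 ∧ (X ^ 2 - C t * X + 1 : F[X]) ∣ X ^ r - 1 := by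
  have hq : 2 ≤ Nat.card F := Finite.one_lt_card
  have e : Nat.card F ^ 2 - 1 = (Nat.card F + 1) * (Nat.card F - 1) := by
    obtain ⟨a, ha⟩ : ∃ a, Nat.card F = a + 1 := ⟨Nat.card F - 1, by omega⟩
    rw [ha, Nat.add_sub_cancel]
    have : (a + 1) ^ 2 = (a + 1 + 1) * a + 1 := by ring
    omega
  rcases Nat.lt_or_ge 0 (if r ∣ Nat.card F - 1 then 1 else 0) with hc | hc
  · have h1 : r ∣ Nat.card F - 1 := by
      by_contra h
      simp [h] at hc
    have : Fintype F := Fintype.ofFinite F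
    have hF : Fact r.Prime := ⟨hr⟩
    obtain ⟨a, ha⟩ := exists_prime_orderOf_dvd_card' (G := Fˣ) r (by
      rw [Nat.card_units]; exact h1)
    have har : a ^ r = 1 := by rw [← ha]; exact pow_orderOf_eq_one a
    have ha2 : a ≠ a⁻¹ := by
      intro h
      have h2 : a ^ 2 = 1 := by rw [pow_two]; nth_rewrite 1 [h]; exact inv_mul_cancel a
      have h3 := Nat.le_of_dvd (by norm_num) (orderOf_dvd_of_pow_eq_one h2)
      omega
    have ha2' : (a : F) - ((a⁻¹ : Fˣ) : F) ≠ 0 := by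
      intro h
      exact ha2 (Units.ext (sub_eq_zero.1 h))
    have haa : (a : F) * ((a⁻¹ : Fˣ) : F) = 1 := a.mul_inv
    refine ⟨(a : F) + ((a⁻¹ : Fˣ) : F), ?_, ?_⟩
    · intro h
      apply ha2'
      have h2 : ((a : F) - ((a⁻¹ : Fˣ) : F)) ^ 2 = 0 := by linear_combination h - 4 * haa
      exact pow_eq_zero_iff (two_ne_zero) |>.1 h2
    · have hpoly : (X ^ 2 - C ((a : F) + ((a⁻¹ : Fˣ) : F)) * X + 1 : F[X]) =
          (X - C (a : F)) * (X - C ((a⁻¹ : Fˣ) : F)) := by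
        have : (C (a : F) * C ((a⁻¹ : Fˣ) : F) : F[X]) = 1 := by rw [← C_mul, haa, C_1]
        rw [C_add]
        linear_combination (-1 : F[X]) * this
      rw [hpoly]
      apply IsCoprime.mul_dvd
      · exact isCoprime_X_sub_C_of_isUnit_sub ha2'.isUnit
      · rw [dvd_iff_isRoot, IsRoot, eval_sub, eval_pow, eval_X, eval_one, ← Units.val_pow_eq_pow_val, har,
          Units.val_one, sub_self]
      · rw [dvd_iff_isRoot, IsRoot, eval_sub, eval_pow, eval_X, eval_one, ← Units.val_pow_eq_pow_val, inv_pow, har,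
          inv_one, Units.val_one, sub_self]
  · have h1 : ¬ r ∣ Nat.card F - 1 := by
      intro h
      simp [h] at hc
    have h2 : r ∣ Nat.card F + 1 := by
      rw [e] at hrd
      exact (hr.dvd_mul.1 hrd).resolve_right h1
    obtain ⟨f, hf⟩ := exists_pol F (d := 2) (by omega) hrd (fun k hk hkd => by
      have hk1 : k = 1 := by omega
      subst hk1
      rw [pow_one]
      exact h1)
    have h0 : f.coeff 0 = 1 := by
      have h3 := (hf.coef 1).2 (by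
        rw [mul_one, e, Nat.mul_div_cancel _ (by omega)]
        exact h2)
      rw [pow_one] at h3
      simpa using h3
    have h3 : f = X ^ 2 - C (-f.coeff 1) * X + 1 := by
      have h4 := hf.monic.as_sum
      rw [hf.deg, Finset.sum_range_succ, Finset.sum_range_one, h0] at h4
      rw [C_neg, neg_mul, sub_neg_eq_add]
      nth_rewrite 1 [h4]
      rw [C_1, pow_zero, mul_one, pow_one]
      ring
    refine ⟨-f.coeff 1, ?_, by rw [← h3]; exact (hf.dvd r).2 dvd_rfl⟩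
    intro h
    obtain ⟨t, ht⟩ : ∃ t, t = -f.coeff 1 := ⟨_, rfl⟩
    rw [← ht] at h h3
    have h2' : (2 : F) ≠ 0 ∨ (2 : F) = 0 := (em _).symm
    rcases h2' with h2' | h2'
    · have h4 := eval_ne_zero hf.irr (by rw [hf.deg]) (t / 2)
      apply h4
      rw [h3]
      simp only [eval_add, eval_sub, eval_pow, eval_mul, eval_X, eval_C, eval_one]
      field_simp
      linear_combination -h
    · have h4 : t = 0 := by
        have : t ^ 2 = 0 := by rw [h]; linear_combination 2 * h2'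
        exact pow_eq_zero_iff (two_ne_zero) |>.1 this
      have h5 := eval_ne_zero hf.irr (by rw [hf.deg]) 1
      apply h5
      rw [h3, h4]
      simp only [eval_add, eval_sub, eval_pow, eval_mul, eval_X, eval_C, eval_one]
      linear_combination h2'

end Cfsg.Agent.H562.TC6
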