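import Cfsg.Agent.H562.TC6.SpGen

/-!
# S2464, the groups `PSp_2n(q)`, `q` odd, `n ≥ 4`, `q² - 1` not a `{2,3}`-number: the two classes
(variant of `H140/TC/SpRow.lean` with elements of order prime to `6`)
-/

set_option autoImplicit false

namespace Cfsg.Agent.H562.TC6

open Module Matrix Polynomial Cfsg.Agent.H962.PP Cfsg.Agent.H126.PwO Cfsg.Agent.H140.OreO Cfsg.Agent.H140.TC
  Cfsg.Agent.H140.TC.Sp

variable {F : Type*} [Field F] {n k : ℕ}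

/-- conjugacy in `SL_2(F)`, regular semisimple elements -/
theorem conj_sl_two [Finite F] (h2 : (2 : F) ≠ 0) {M M₀ : Matrix (Fin 2) (Fin 2) F} (hM : Cyc M) (hM₀ : Cyc M₀)
    (hd : M₀.det = 1) (h : M.charpoly = M₀.charpoly) (htr : M₀.trace ^ 2 ≠ 4) :
    ∃ R : Matrix (Fin 2) (Fin 2) F, R.det = 1 ∧ R * M₀ = M * R := by
  have := Fintype.ofFinite F
  obtain ⟨P, hP, hPx⟩ := conj_of_cyc hM₀ hM h.symm
  have hPP : P⁻¹ * P = 1 := Matrix.nonsing_inv_mul _ hP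
  have hcom : M * P = P * M₀ := by rw [hPx, mul_assoc, hPP, mul_one]
  obtain ⟨t, ht⟩ : ∃ t, t = M₀.trace := ⟨_, rfl⟩
  have h4' : (4 : F) ≠ 0 := by
    have : (4 : F) = 2 * 2 := by norm_num
    rw [this]; exact mul_ne_zero h2 h2
  have hne : (1 : F) - t ^ 2 / 4 ≠ 0 := by
    intro h0
    apply htr
    rw [← ht]
    have h3 : t ^ 2 / 4 = 1 := (sub_eq_zero.1 h0).symm
    rw [div_eq_iff h4', one_mul] at h3
    exact h3
  obtain ⟨a, b, hab⟩ := FiniteField.exists_root_sum_quadratic (R := F)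
    (f := C 1 * X ^ 2 + C 0 * X + C (-(P.det)⁻¹)) (g := C (1 - t ^ 2 / 4) * X ^ 2 + C 0 * X + C 0)
    (degree_quadratic one_ne_zero) (degree_quadratic hne) (card_odd h2)
  simp only [eval_add, eval_mul, eval_C, eval_pow, eval_X, zero_mul, add_zero, one_mul] at hab
  obtain ⟨K, hK⟩ : ∃ K : Matrix (Fin 2) (Fin 2) F, K = (a - b * t / 2) • (1 : Matrix (Fin 2) (Fin 2) F) + b • M₀ :=
    ⟨_, rfl⟩
  have hKd : K.det = (P.det)⁻¹ := by
    have e1 : M₀ 0 0 * M₀ 1 1 - M₀ 0 1 * M₀ 1 0 = 1 := by rw [← hd, Matrix.det_fin_two]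
    have e2 : t = M₀ 0 0 + M₀ 1 1 := by rw [ht, Matrix.trace_fin_two]
    rw [Matrix.det_fin_two, hK]
    simp only [Matrix.add_apply, Matrix.smul_apply, Matrix.one_apply_eq, Matrix.one_apply, smul_eq_mul]
    simp only [Fin.reduceEq, if_false, mul_one, mul_zero, zero_add]
    have e3 : a ^ 2 + (1 - t ^ 2 / 4) * b ^ 2 = (P.det)⁻¹ := by linear_combination hab
    rw [← e3]
    have e4 : (a - b * t / 2) ^ 2 + (a - b * t / 2) * b * t + b ^ 2 = a ^ 2 + (1 - t ^ 2 / 4) * b ^ 2 := by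
      field_simp
      ring
    rw [← e4]
    linear_combination b ^ 2 * e1 - (a - b * t / 2) * b * e2
  refine ⟨P * K, ?_, ?_⟩
  · rw [det_mul, hKd, mul_inv_cancel₀ hP.ne_zero]
  · have hKM : K * M₀ = M₀ * K := by
      rw [hK, Matrix.add_mul, Matrix.mul_add, Matrix.smul_mul, Matrix.smul_mul, Matrix.mul_smul, Matrix.mul_smul,
        Matrix.one_mul, Matrix.mul_one]
    rw [mul_assoc, hKM, ← mul_assoc, ← mul_assoc, hcom]

/-- `2 × 2` matrices with an entry `a₀₁ ≠ 0` are cyclic -/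
theorem cyc_two {M : Matrix (Fin 2) (Fin 2) F} (h : M 0 1 ≠ 0) : Cyc M := by
  refine ⟨Pi.single 1 1, ?_⟩
  rw [linearIndependent_fin2]
  constructor
  · intro h0
    have h1 := congrFun h0 0
    simp at h1
    exact h h1
  · intro a h0
    have h1 := congrFun h0 0
    simp at h1
    rcases h1 with h1 | h1
    · rw [h1] at h0
      have h2 := congrFun h0 1
      simp at h2
    · exact h h1

/-- **`Sp`, odd characteristic, elements of order prime to `6`** -/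
theorem six_sp_odd [Finite F] (h2 : (2 : F) ≠ 0) (hk : 2 ≤ k) {r : ℕ} (hr : r.Prime) (h5 : 5 ≤ r)
    (hrd : r ∣ Nat.card F ^ 2 - 1) :
    ∃ x₀ y₀ : G (k + 2) F, Nat.Coprime (orderOf x₀) 6 ∧ Nat.Coprime (orderOf y₀) 6 ∧
      ∀ g : G (k + 2) F, g ∉ Subgroup.center (G (k + 2) F) →
      ∃ u v : G (k + 2) F, g = (u * x₀ * u⁻¹) * (v * y₀ * v⁻¹) := by
  have hex : 1 ≤ k ∨ ∃ t : F, t ≠ 0 ∧ t ^ 2 ≠ 1 := Or.inl (by omega)
  have hq := card_ge h2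
  obtain ⟨t₀, ht₀, ht₁⟩ := exists_t F hr h5 hrd
  obtain ⟨h, hh⟩ : ∃ h : F[X], h = X ^ 2 - C t₀ * X + 1 := ⟨_, rfl⟩
  rw [← hh] at ht₁
  have hcp : ∀ M : Matrix (Fin 2) (Fin 2) F, M.det = 1 → M.trace = t₀ → M.charpoly = h := by
    intro M h1 h3
    rw [Matrix.charpoly_fin_two, h1, h3, C_1, hh]
  obtain ⟨M₀, hM₀⟩ : ∃ M₀ : SpecialLinearGroup (Fin 2) F, (M₀ : Matrix (Fin 2) (Fin 2) F) = !![0, -1; 1, t₀] :=
    ⟨⟨!![0, -1; 1, t₀], by rw [Matrix.det_fin_two_of]; ring⟩, rfl⟩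
  have hM₀c : (M₀ : Matrix (Fin 2) (Fin 2) F).charpoly = h := hcp _ M₀.det_coe (by
    rw [hM₀, Matrix.trace_fin_two_of]; ring)
  have hdeg : h.natDegree = 2 := by
    rw [← hM₀c, Matrix.charpoly_natDegree_eq_dim, Fintype.card_fin]
  have hmon : h.Monic := by rw [← hM₀c]; exact Matrix.charpoly_monic _
  have hc0 : h.coeff 0 = 1 := by rw [hh]; simp [coeff_one]
  have hM₀t : (M₀ : Matrix (Fin 2) (Fin 2) F).trace ^ 2 ≠ 4 := by
    rw [hM₀, Matrix.trace_fin_two_of, zero_add]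
    exact ht₀
  have hM₀y : Cyc (M₀ : Matrix (Fin 2) (Fin 2) F) := cyc_two (by rw [hM₀]; simp)
  obtain ⟨f₁, s₁, hf₁, hs₁, hd₁⟩ := exists_rp6 F hq (show 3 ≤ k + 2 by omega) hr h5 hrd
  obtain ⟨f₂, s₂, hf₂, hs₂, hd₂⟩ := exists_rp6 F hq (show 3 ≤ k + 1 by omega) hr h5 hrd
  have hf₂0 : f₂.coeff 0 ≠ 0 := hf₂.coeff_ne (by omega)
  have hf₂1 : f₂.eval 1 ≠ 0 := hf₂.eval_ne (by omega) 1
  have hf₂h : IsCoprime f₂ h := cop_chi hf₂.irr hmon hdeg hc0 (Or.inl (by rw [hf₂.deg]; omega))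
  obtain ⟨X₀, hX₀f, hX₀, -⟩ := exists_mat (d := k + 2) (by omega) hf₁
  obtain ⟨B₀, hB₀f⟩ : ∃ B₀ : Matrix (Fin (k + 1)) (Fin (k + 1)) F, B₀.charpoly = f₂ := by
    obtain ⟨B, hB⟩ := exists_matrix f₂ hf₂.monic hf₂0 hf₂.deg
    exact ⟨B, hB⟩
  have hB₀ : Cyc B₀ := cyc_of_irr (by omega) (by rw [hB₀f]; exact hf₂.irr)
  have hXd : X₀.det ≠ 0 := det_ne_zero_iff.2 (by rw [hX₀f]; exact hf₁.coeff_ne (by omega))
  have hBd : B₀.det ≠ 0 := det_ne_zero_iff.2 (by rw [hB₀f]; exact hf₂0)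
  obtain ⟨X, hX⟩ := exists_gl hXd
  obtain ⟨B, hB⟩ := exists_gl hBd
  obtain ⟨Z, hZ⟩ : ∃ Z : GL (Fin (k + 2)) F, (Z : Matrix (Fin (k + 2)) (Fin (k + 2)) F) = blk 1 B₀ :=
    exists_gl (by rw [blk_det, one_mul]; exact hBd)
  have hXs : X ^ s₁ = 1 := pow_of_charpoly (p := f₁) (by rw [hX, hX₀f]) hd₁
  have hBs : B ^ s₂ = 1 := pow_of_charpoly (p := f₂) (by rw [hB, hB₀f]) hd₂
  have hMs : M₀ ^ r = 1 := by
    apply Subtype.ext
    exact (Matrix.SpecialLinearGroup.coe_pow M₀ r).trans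
      (Cfsg.Agent.H962.PP.pow_eq_one_of_charpoly (by rw [hM₀c]; exact ht₁))
  refine ⟨lv X, em (M₀, B), ?_, ?_, fun g hg => ?_⟩
  · refine Nat.Coprime.coprime_dvd_left (orderOf_dvd_of_pow_eq_one (n := s₁) ?_) hs₁
    rw [← map_pow, hXs, map_one]
  · refine Nat.Coprime.coprime_dvd_left (orderOf_dvd_of_pow_eq_one (n := r * s₂) ?_) ((cop6 hr h5).mul_left hs₂)
    rw [← map_pow, Prod.pow_mk, pow_mul, hMs, one_pow, mul_comm r s₂, pow_mul, hBs, one_pow]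
    exact map_one em
  obtain ⟨t, A, C₁, D₁, E₁, htg, hC, hAdet, hAns⟩ := exists_corner (by omega) hg
    (Δ := X₀.det * (1 * B₀.det)) (mul_ne_zero hXd (mul_ne_zero one_ne_zero hBd))
  have hAd : A.det ≠ 0 := by rw [hAdet]; exact mul_ne_zero hXd (mul_ne_zero one_ne_zero hBd)
  obtain ⟨R, hR⟩ := exists_gl hAd
  obtain ⟨T, S, hT, hS, e, hCS, -⟩ := gauss htg R hR
  have hS0 : S ≠ 0 := by
    rintro rfl
    exact hC (by rw [hCS, Matrix.mul_zero])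
  -- the covector
  obtain ⟨φ, hφS, hφA⟩ := exists_aniso h2 (Matrix.toBilin' S) (fun x y => by
    rw [Matrix.toBilin'_apply', Matrix.toBilin'_apply', dotProduct_comm, Matrix.dotProduct_mulVec, ← Matrix.mulVec_transpose,
      hS, dotProduct_comm]) (by
    intro h0
    apply hS0
    apply Matrix.toBilin'.injective
    rw [h0, map_zero]) (Matrix.vecMulLinear A) (fun c => by
    by_contra hcon
    push Not at hcon
    apply hAns c
    ext i j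
    have h3 := congrFun (hcon (Pi.single i 1)) j
    rw [Matrix.vecMulLinear_apply, Matrix.single_one_vecMul] at h3
    rw [scalar_apply, diagonal_apply]
    change A i j = _ at h3
    rw [h3, Pi.smul_apply, Pi.single_apply, smul_eq_mul]
    by_cases hij : i = j
    · simp [hij]
    · simp [hij, Ne.symm hij]) (by
    rw [Module.finrank_fintype_fun_eq_card, Fintype.card_fin]
    rcases hex with h | h
    · left; omega
    · exact Or.inr h)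
  rw [Matrix.toBilin'_apply'] at hφS
  rw [Matrix.vecMulLinear_apply] at hφA
  have hφ0 : φ ≠ 0 := by
    rintro rfl
    exact hφS (by simp)
  obtain ⟨P, Q, hP, hQ, hPQ, a, ha0, haQ⟩ := exists_mul_conj_phi A hφ0 hφA X₀ hX₀ hXd B₀ hB₀ hBd 1 one_ne_zero
    (by rw [hB₀f]; exact hf₂1) hAdet
  obtain ⟨P', hP'⟩ := exists_gl hP.ne_zero
  obtain ⟨Q', hQ'⟩ := exists_gl hQ.ne_zero
  have hinv : ∀ (W : Matrix (Fin (k + 2)) (Fin (k + 2)) F) (W' : GL (Fin (k + 2)) F),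
      (W' : Matrix (Fin (k + 2)) (Fin (k + 2)) F) = W → ((W'⁻¹ : GL (Fin (k + 2)) F) : Matrix _ _ F) = W⁻¹ := by
    intro W W' h
    rw [← h]
    exact (Matrix.coe_units_inv W')
  have hRe : R = (P' * X * P'⁻¹) * (Q' * Z * Q'⁻¹) := by
    apply Units.ext
    simp only [Units.val_mul]
    rw [hR, hPQ, hinv P P' hP', hinv Q Q' hQ', hP', hQ', hX, hZ]
  -- the symmetric matrix in the new coordinates
  obtain ⟨S', hS'⟩ : ∃ S', S' = ((Q'⁻¹ : GL (Fin (k + 2)) F) : Matrix (Fin (k + 2)) (Fin (k + 2)) F) * S *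
    ((Q'⁻¹ : GL (Fin (k + 2)) F) : Matrix (Fin (k + 2)) (Fin (k + 2)) F)ᵀ := ⟨_, rfl⟩
  have hS's : S'ᵀ = S' := by
    rw [hS', transpose_mul, transpose_mul, transpose_transpose, hS, Matrix.mul_assoc]
  have hupS : (lv Q')⁻¹ * up S hS * lv Q' = up S' hS's := by
    have h3 := lv_up Q'⁻¹ hS
    rw [map_inv, inv_inv] at h3
    rw [h3]
    exact up_congr _ hS'.symm
  have hσ : S' 0 0 ≠ 0 := by
    have h3 : (Pi.single 0 1 : Fin (k + 2) → F) ᵥ* ((Q'⁻¹ : GL (Fin (k + 2)) F) : Matrix _ _ F) = a⁻¹ • φ := by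
      have h4 : (Pi.single 0 a : Fin (k + 2) → F) = a • (Pi.single 0 1 : Fin (k + 2) → F) := by
        rw [← Pi.single_smul, smul_eq_mul, mul_one]
      have h5 : (Pi.single 0 1 : Fin (k + 2) → F) = a⁻¹ • (φ ᵥ* Q) := by
        rw [haQ, h4, smul_smul, inv_mul_cancel₀ ha0, one_smul]
      rw [h5, Matrix.smul_vecMul, hinv Q Q' hQ', Matrix.vecMul_vecMul, Matrix.mul_nonsing_inv _ hQ,
        Matrix.vecMul_one]
    have h4 : S' 0 0 = (a⁻¹ • φ) ⬝ᵥ (S *ᵥ (a⁻¹ • φ)) := by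
      rw [← h3, hS', Matrix.mul_assoc, Matrix.mul_apply_eq_vecMul, Matrix.single_one_vecMul, Matrix.vecMul,
        dotProduct, dotProduct]
      exact Finset.sum_congr rfl fun i _ => rfl
    rw [h4, Matrix.mulVec_smul, dotProduct_smul, smul_dotProduct, smul_eq_mul, smul_eq_mul]
    exact mul_ne_zero (inv_ne_zero ha0) (mul_ne_zero (inv_ne_zero ha0) hφS)
  obtain ⟨σ, hσe⟩ : ∃ σ, σ = S' 0 0 := ⟨_, rfl⟩
  rw [← hσe] at hσ
  -- the parameter
  obtain ⟨ν, hν⟩ : ∃ ν, ν = (t₀ - 2) / σ := ⟨_, rfl⟩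
  obtain ⟨M, hM⟩ : ∃ M : SpecialLinearGroup (Fin 2) F, (M : Matrix (Fin 2) (Fin 2) F) =
      !![1, 1 * σ; ν * 1, ν * 1 * σ + 1⁻¹] := ⟨⟨_, by rw [Matrix.det_fin_two_of, inv_one]; ring⟩, rfl⟩
  have hMc : (M : Matrix (Fin 2) (Fin 2) F).charpoly = h := hcp _ M.det_coe (by
    rw [hM, Matrix.trace_fin_two_of, hν, inv_one]
    field_simp
    ring)
  have hbs : ∀ x : F, (blk x (0 : Matrix (Fin (k + 1)) (Fin (k + 1)) F))ᵀ = blk x 0 := fun x => by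
    rw [blk_transpose, transpose_zero]
  have hS''s : (S' - blk σ 0)ᵀ = S' - blk σ 0 := by rw [transpose_sub, hS's, hbs]
  have hup2 : up S' hS's = up (blk σ 0) (hbs σ) * up (S' - blk σ 0) hS''s := by
    rw [up_mul]
    exact up_congr _ (by abel)
  have hem := em_eq (ν := ν) (c := (1 : F)) (σ := σ) one_ne_zero (B := B) (Z := Z) (by rw [hZ, hB]) (M := M)
    (by rw [hM]; rfl) (by rw [hM]; rfl) (by rw [hM]; rfl) (by rw [hM]; rfl)
  obtain ⟨r₁, hr₁⟩ := conj_em_up (M := M) (B := B) (by rw [hB, hB₀f]; exact hf₂.cop)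
    (by rw [hB, hB₀f, hMc]; exact hf₂h) hS''s (by
      rw [Matrix.sub_apply, blk_zero_zero, hσe, sub_self])
  obtain ⟨W, hWd, hW⟩ := conj_sl_two h2 (M := M) (M₀ := M₀) (cyc_two (by rw [hM]; simpa using hσ))
    hM₀y M₀.det_coe (by rw [hMc, hM₀c]) hM₀t
  obtain ⟨W', hW'⟩ : ∃ W' : SpecialLinearGroup (Fin 2) F, W'.1 = W := ⟨⟨W, hWd⟩, rfl⟩
  have hWM : M = W' * M₀ * W'⁻¹ := by
    rw [eq_mul_inv_iff_mul_eq]
    apply Subtype.ext
    show M.1 * W'.1 = W'.1 * M₀.1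
    rw [hW']
    exact hW.symm
  have hemM : em (M, B) = em (W', 1) * em (M₀, B) * (em (W', 1))⁻¹ := by
    rw [← map_inv, ← map_mul, ← map_mul]
    congr 1
    ext1
    · exact hWM
    · show B = 1 * B * 1⁻¹
      group
  -- the two factors
  obtain ⟨l, hl⟩ : ∃ l, l = lv Q' * lo (blk ν 0) (hbs ν) * (lv Q')⁻¹ := ⟨_, rfl⟩
  have hlm : l ∈ Lo (k + 2) F := by rw [hl]; exact Lo_conj Q' (lo_mem _)
  obtain ⟨r₂, hr₂⟩ := conj_lo_lv (X := P' * X * P'⁻¹) (by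
    have h3 : ((P' * X * P'⁻¹ : GL (Fin (k + 2)) F) : Matrix (Fin (k + 2)) (Fin (k + 2)) F).charpoly = f₁ := by
      simp only [Units.val_mul]
      rw [Matrix.charpoly_mul_comm, ← Matrix.mul_assoc, ← Units.val_mul, inv_mul_cancel, Units.val_one, Matrix.one_mul,
        hX, hX₀f]
    rw [h3]
    exact hf₁.cop) (lo_mem hT) (inv_mem hlm)
  have e2 : t * g * t⁻¹ = (lo T hT * lv (P' * X * P'⁻¹) * l⁻¹) * (l * lv (Q' * Z * Q'⁻¹) * up S hS) := by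
    rw [e, hRe, map_mul]; group
  have e3 : l * lv (Q' * Z * Q'⁻¹) * up S hS = (lv Q' * r₁ * em (W', 1)) * em (M₀, B) * (lv Q' * r₁ * em (W', 1))⁻¹ := by
    have h3 : l * lv (Q' * Z * Q'⁻¹) * up S hS =
        lv Q' * (lo (blk ν 0) (hbs ν) * lv Z * ((lv Q')⁻¹ * up S hS * lv Q')) * (lv Q')⁻¹ := by
      rw [hl]; simp only [map_mul, map_inv]; group
    rw [h3, hupS, hup2, ← mul_assoc (lo (blk ν 0) (hbs ν) * lv Z), hem, hr₁, hemM]
    group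
  have e4 : g = t⁻¹ * (t * g * t⁻¹) * t := by group
  refine ⟨t⁻¹ * r₂ * lv P', t⁻¹ * (lv Q' * r₁ * em (W', 1)), ?_⟩
  rw [e4, e2, hr₂, e3]
  simp only [map_mul, map_inv]
  group

end Cfsg.Agent.H562.TC6
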